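import Cfsg.Agent.H92.Tall.Exc
import Cfsg.Agent.H371.PU.Base
import Cfsg.Agent.H187.TwF4Par
import Cfsg.Agent.KFacts.TwESix.Dat
import Cfsg.Agent.KFacts.TwESix.Faith
import Cfsg.Agent.KFacts.RgdLieCharP
import Cfsg.Agent.S1070
import Cfsg.Agent.H2.UniqCTwD4

/-!
# S2927 [LAT]: `RowTwo` for `²F₄(q)`, `²E₆(q)`, `³D₄(q)`, `q` even (helper371, task 5489)
-/

set_option autoImplicit false
set_option linter.unusedSectionVars false

open Cfsg Cfsg.Lie

universe u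

/-! ### `²F₄(q)` -/

namespace Cfsg.Agent.H371.Tall.F4

open Subgroup Cfsg.Agent.KFacts.TwF4 Cfsg.Agent.KFacts.TwF4.Full Cfsg.Agent.KFacts.TwF4.Arc
open Cfsg.Agent.KFacts.TwF4.Inv Cfsg.Agent.KFacts.TwF4.SylU Cfsg.Agent.KFacts.TwF4.Irr
open Cfsg.Agent.SplitTwo Cfsg.Agent.SplitTwo.ZS Cfsg.Agent.TitsThree.RankTwoZ
open Cfsg.Agent.SplitTwo.RootSysZ Cfsg.Agent.H248.TwF4Over
open Cfsg.Agent.H226.Tall

variable {F : Type*} [Field F] {σ : F →+* F} {G : Type u} [Group G] (S : Full σ G)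

theorem n2_not_mem : S.n2 ∉ J S.XZ 1 8 := by
  intro h
  have h1 : S.e 0 1 0 ∈ J S.XZ 1 8 := by
    have h2 : S.n2 * S.e 4 1 0 * S.n2⁻¹ = S.e 0 1 0 := by rw [S.n2_e, sub_self]
    rw [← h2]
    exact mul_mem (mul_mem h (X_le_J (X := S.XZ) (k := 8) (by norm_num) (by norm_num) ((mem_X8 S).2 ⟨1, 0, rfl⟩))) (inv_mem h)
  have h3 := H127.TwFInv.X0_inf_BT S ((mem_X0 S).2 ⟨1, 0, rfl⟩) (mem_sup_left h1)
  exact one_ne_zero (S.e_eq_one h3).1

theorem rowTwo_full [Finite G] (h2 : IsPGroup 2 ↥(J S.XZ 1 8)) (hsyl : ¬ 2 ∣ (J S.XZ 1 8).index) : RowTwo G := by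
  have hfact : Fact (Nat.Prime 2) := ⟨Nat.prime_two⟩
  have NF := H371.PU.nfacts_top S h2 hsyl
  intro z hz hp
  obtain ⟨g, h3, h4⟩ := H92.Tall.exists_std h2 hsyl hz
  obtain ⟨u, hu⟩ : g * z * g⁻¹ ∈ S.Zc 2 := NF.c17 _ (mem_top _) fun x hx => h4 x (J_mono le_rfl (by norm_num) hx.1)
  have h5 : S.n2 ∈ centralizer ({g * z * g⁻¹} : Set G) := by
    rw [mem_centralizer_singleton_iff, ← hu, ← mul_inv_eq_iff_eq_mul, S.n2_e]
    rfl
  have h6 : IsPGroup 2 ↥(centralizer ({g * z * g⁻¹} : Set G)) := H92.Tall.isPGroup_conj g hp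
  have h7 : J S.XZ 1 8 ≤ centralizer ({g * z * g⁻¹} : Set G) := by
    intro x hx
    rw [mem_centralizer_singleton_iff]
    exact (h4 x hx).symm
  have h8 := (h2.toSylow hsyl).is_maximal' h6 h7
  rw [h8] at h5
  exact n2_not_mem S h5

end Cfsg.Agent.H371.Tall.F4

namespace Cfsg.Agent.H371.Tall

open Subgroup Cfsg.Agent.H226.Tall

/-- **`²F₄(q)`, `q ≥ 8`** -/
theorem rowTwo_twF4 {K : Type u} [Group K] (h : Iso2F4 K) : RowTwo K := by
  obtain ⟨F, i1, i2, m, φ, S, -, hcard, ⟨e⟩, hR, hfin, hF⟩ := Cfsg.Agent.H187.exists_full h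
  obtain ⟨P0, hP0⟩ := Cfsg.Agent.KFacts.TwF4.SylU.exists_sylow S hF hR
  have h1 := F4.rowTwo_full S (by rw [← hP0]; exact P0.isPGroup') (by rw [← hP0]; exact P0.not_dvd_index)
  exact h1.congr e.symm

end Cfsg.Agent.H371.Tall

/-! ### `²E₆(q)` -/

namespace Cfsg.Agent.H371.Tall.E6

open CoxeterSystem Cfsg.Agent.ChevalleyStructure.CoxeterGeom Cfsg.Agent.Tits.Roots Cfsg.Agent.Tits.Core
  Cfsg.Agent.Tits.RootComb Cfsg.Agent.Tits.Exchange Cfsg.Agent.Nodes.Reps Cfsg.Agent.Nodes.BNOf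
  Cfsg.Agent.Nodes.Coroot Cfsg.Agent.KFacts.RgdSL Cfsg.Agent.KFacts.RgdTI
  Cfsg.Agent.Nodes.RGDTwE6 Cfsg.Agent.KFacts.TwESix.Comb Cfsg.Agent.KFacts.TwESix.CombRho
  Cfsg.Agent.KFacts.TwESix.Facts Cfsg.Agent.KFacts.RgdPar Cfsg.Agent.KFacts.RgdCent Cfsg.Agent.KFacts.RgdOdd
  Cfsg.Agent.Nodes.Bruhat Cfsg.Agent.KFacts.TwESix.QRho
open Cfsg.Agent.H226.Tall

section

variable {W Y : Type*} [Group W] [Group Y] {cs : CoxeterSystem CoxeterMatrix.F₄ W} {T : Subgroup Y} {n : Fin 4 → Y}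
  {X : (Fin 4 → ℤ) → Subgroup Y}

theorem rowTwo_rgd [Finite Y] {R : RGD cs isCartan 2 T n X} (D : Dat R) (hG : GG cs isCartan T X = ⊤)
    (hN : NoCent cs isCartan T X) : RowTwo Y := by
  have : Finite W := finiteW cs
  refine H92.Tall.rowTwo_of_rgd R hG 1 fun z hz hc => ?_
  have h1 : z ∈ X rho := by
    refine Cfsg.Agent.KFacts.TwESix.Faith.cent_Q D hN (by rw [hG]; exact Subgroup.mem_top _) fun v hv => hc v ?_
    refine RGD.Sup_mono ?_ hv
    intro b hb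
    have h2 : 1 ≤ b 0 := by rw [← cpr_rho cs b]; exact hb.2
    obtain ⟨h3, h4, h5⟩ := Cfsg.Agent.KFacts.TwESix.Faith.pos_of_zero b ((mem_rts cs).1 hb.1) h2
    refine ⟨hb.1, fun i => ?_⟩
    show 0 ≤ b i
    fin_cases i
    · exact le_trans zero_le_one h2
    · exact h3
    · exact h4
    · exact h5
  have L := D.lr rho (rho_root cs) rho_long
  constructor
  · intro v hv
    exact (L.comm (sr 1) (isRoot_sr cs isCartan 1) (by rw [cpr_rho]; decide) v hv z h1).symm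
  · intro v hv
    exact (L.comm (-sr 1) (isRoot_sr cs isCartan 1).neg (by rw [cpr_rho]; decide) v hv z h1).symm

end

open Cfsg.Agent.Nodes.RGDTwGen Cfsg.Agent.Nodes.RGDFold Cfsg.Agent.Nodes.RGDFoldSL

theorem rowTwo {K : Type u} [Field K] [Fintype K] [CharP K 2] {q : ℕ} (hq : IsPrimePow q) (hK : Fintype.card K = q ^ 2) :
    RowTwo ↥(twistedE6 K q) := by
  obtain ⟨φ, hφ, hqq⟩ := Cfsg.Agent.ChevalleyStructure.TwE6Basic.exists_frob hq hK
  have hf2 : Fact (Nat.Prime 2) := ⟨Nat.prime_two⟩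
  have D := Cfsg.Agent.KFacts.TwESix.Dat.dat CoxeterMatrix.F₄.toCoxeterSystem hφ hqq hK hq.one_lt
  have hG := G1_eq_top CoxeterMatrix.F₄.toCoxeterSystem hφ hqq
  have hc : Subgroup.center ↥(twistedE6 K q) = ⊥ := by
    obtain ⟨h1, h2⟩ := Cfsg.Agent.S1070.result hq hK
    rcases Subgroup.Normal.eq_bot_or_eq_top (inferInstance : (Subgroup.center ↥(twistedE6 K q)).Normal) with h | h
    · exact h
    · exfalso
      apply h2
      refine ⟨⟨fun a b => ?_⟩⟩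
      have h3 : a ∈ Subgroup.center ↥(twistedE6 K q) := by rw [h]; exact Subgroup.mem_top a
      exact (Subgroup.mem_center_iff.1 h3 b).symm
  exact rowTwo_rgd D (Cfsg.Agent.KFacts.RgdFilt.GG_eq_top hG)
    (Cfsg.Agent.KFacts.RgdLieCharP.noCent_of_center hG hc)

end Cfsg.Agent.H371.Tall.E6

/-! ### `³D₄(q)` -/

namespace Cfsg.Agent.H371.Tall.D4

open Subgroup CoxeterSystem Cfsg.Agent.ChevalleyStructure.CoxeterGeom Cfsg.Agent.Tits.Roots Cfsg.Agent.Tits.Core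
  Cfsg.Agent.Tits.RootComb Cfsg.Agent.Nodes.Comb Cfsg.Agent.Nodes.Reps Cfsg.Agent.Nodes.BNOf
  Cfsg.Agent.Nodes.Coroot Cfsg.Agent.Nodes.OppDec Cfsg.Agent.Nodes.Bruhat
  Cfsg.Agent.SplitTwo Cfsg.Agent.UGT.U2.FOne.Hexa Cfsg.Agent.KFacts.RgdTI Cfsg.Agent.KFacts.RgdCent
open Cfsg.Agent.H2.UniqCTwD4 (comm_four comm_four_neg pos_r exists_of_pos)
open Cfsg.Agent.H226.Tall

section par

variable {I W K : Type*} [Fintype I] [DecidableEq I] [Group W] [Finite W] [Group K] {M : CoxeterMatrix I}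
  {cs : CoxeterSystem M W} {A : I → I → ℤ} {h : IsCartan M A} {p : ℕ} {T : Subgroup K} {n : I → K}
  {X : (I → ℤ) → Subgroup K} {l s : I}

theorem cpr_l (H : TyG A l s) (k : ZMod (2 * 6)) : cpr cs h (r l s k) (sr l) = 2 * (tab k).1 - (tab k).2 := by
  show cpr cs h ((tab k).1 • sr l + (tab k).2 • sr s) (sr l) = _
  rw [cpr_add cs h _ _ (isRoot_sr cs h l), cpr_smul cs h _ _ (isRoot_sr cs h l), cpr_smul cs h _ _ (isRoot_sr cs h l),
    cpr_self cs h (isRoot_sr cs h l), cpr_sr, Cfsg.Agent.KFacts.RgdVJ.pairing_sr0, H.als]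
  ring

theorem cpr_six (H : TyG A l s) (k : ZMod (2 * 6)) : cpr cs h (r l s k) (r l s 6) = 2 * (tab k).1 - (tab k).2 := by
  rw [r_six, cpr_l H]

theorem cpr_two (H : TyG A l s) (k : ZMod (2 * 6)) : cpr cs h (r l s k) (r l s 2) = 2 * (tab (8 - k)).1 - (tab (8 - k)).2 := by
  rw [← cpr_six H (cs := cs) (h := h), ← cpr_rep cs h (cs.simple s) (r l s (8 - k)) (isRoot_r H 6), rep_s H, rep_s H]
  congr 2
  ring

theorem cpr_four (H : TyG A l s) (k : ZMod (2 * 6)) : cpr cs h (r l s k) (r l s 4) = 2 * (tab (k + 2)).1 - (tab (k + 2)).2 := by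
  have h1 := cpr_two H (cs := cs) (h := h) (6 - k)
  have e : 8 - (6 - k) = k + 2 := by ring
  rw [e] at h1
  rw [← h1, ← cpr_rep cs h (cs.simple l) (r l s (6 - k)) (isRoot_r H 2), rep_l H, rep_l H]
  congr 2
  ring

variable {E : Type*} [Field E] [Finite E] [CharP E 2] {θ : E ≃+* E} {x1 x2 x3 x4 x5 x6 : E → K}
  (P : HexPar θ (fun k => X (r l s k)) x1 x2 x3 x4 x5 x6)

include P

theorem lr_four (R : RGD cs h p T n X) (H : TyG A l s) : LR R (r l s 4) := by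
  refine ⟨isRoot_r H 4, fun x hx hc u hu v hv => ?_⟩
  obtain ⟨k, rfl⟩ := (isRoot_iff H).1 hx
  rw [cpr_four H] at hc
  obtain ⟨t, ht, rfl⟩ := (P.mem4 v).1 hv
  have h1 : k ∈ [(1 : ZMod (2 * 6)), 2, 3, 4, 5, 6] ∨ k = 1 + 6 := by
    revert hc
    clear hx hu
    revert k
    decide
  rcases h1 with h1 | rfl
  · exact comm_four P ht k h1 hu
  · rw [r_neg, r_one] at hu
    exact comm_four_neg P R H ht hu

theorem zero3 : x3 0 = 1 := by
  have := P.rel.add3 0 0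
  rw [add_zero] at this
  exact mul_eq_left.1 this.symm

theorem zero5 : x5 0 = 1 := by
  have := P.rel.add5 0 0
  rw [add_zero] at this
  exact mul_eq_left.1 this.symm

theorem zero4 : x4 0 = 1 := by
  have := P.rel.add4 0 0 (map_zero _) (map_zero _)
  rw [add_zero] at this
  exact mul_eq_left.1 this.symm

theorem inv3 (a : E) : (x3 a)⁻¹ = x3 (-a) := by
  rw [inv_eq_iff_mul_eq_one, ← P.rel.add3, add_neg_cancel, zero3 P]

theorem inv5 (a : E) : (x5 a)⁻¹ = x5 (-a) := by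
  rw [inv_eq_iff_mul_eq_one, ← P.rel.add5, add_neg_cancel, zero5 P]

theorem inv4 {a : E} (ha : θ a = a) : (x4 a)⁻¹ = x4 (-a) := by
  rw [inv_eq_iff_mul_eq_one, ← P.rel.add4 _ _ ha (by rw [map_neg, ha]), add_neg_cancel, zero4 P]

theorem tfix (a b : E) : θ (trc θ a b) = trc θ a b := by
  unfold trc
  rw [map_add, map_add, P.rel.cube]
  ring

theorem m34 (a : E) {c : E} (hc : θ c = c) : x3 a * x4 c = x4 c * x3 a := comm_of_kk (P.rel.c34 a c hc)

theorem m54 (a : E) {c : E} (hc : θ c = c) : x5 a * x4 c = x4 c * x5 a := (comm_of_kk (P.rel.c45 c a hc)).symm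

theorem m53 (a b : E) : x5 b * x3 a = x3 a * x5 b * x4 (-trc θ a b) := by
  have h1 := P.rel.c35 a b
  rw [← inv4 P (tfix P a b), ← h1]
  unfold kk
  group

/-- products `x₃ x₅ x₄` -/
def DD : Subgroup K where
  carrier := {g | ∃ a b c, θ c = c ∧ g = x3 a * x5 b * x4 c}
  one_mem' := ⟨0, 0, 0, map_zero _, by rw [zero3 P, zero4 P, zero5 P]; group⟩
  mul_mem' := by
    rintro _ _ ⟨a, b, c, hc, rfl⟩ ⟨a', b', c', hc', rfl⟩
    have ht : θ (-trc θ a' b) = -trc θ a' b := by rw [map_neg, tfix P]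
    refine ⟨a + a', b + b', -trc θ a' b + (c + c'), by rw [map_add, map_add, ht, hc, hc'], ?_⟩
    rw [P.rel.add3, P.rel.add5, P.rel.add4 _ _ ht (by rw [map_add, hc, hc']), P.rel.add4 _ _ hc hc']
    calc x3 a * x5 b * x4 c * (x3 a' * x5 b' * x4 c') = x3 a * x5 b * (x4 c * x3 a') * x5 b' * x4 c' := by group
      _ = x3 a * x5 b * x3 a' * (x4 c * x5 b') * x4 c' := by rw [← m34 P a' hc]; group
      _ = x3 a * (x5 b * x3 a') * x5 b' * x4 c * x4 c' := by rw [← m54 P b' hc]; group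
      _ = x3 a * x3 a' * x5 b * (x4 (-trc θ a' b) * x5 b') * x4 c * x4 c' := by rw [m53 P]; group
      _ = x3 a * x3 a' * (x5 b * x5 b') * (x4 (-trc θ a' b) * (x4 c * x4 c')) := by rw [← m54 P b' ht]; group
  inv_mem' := by
    rintro _ ⟨a, b, c, hc, rfl⟩
    have hc' : θ (-c) = -c := by rw [map_neg, hc]
    have ht : θ (-trc θ (-a) (-b)) = -trc θ (-a) (-b) := by rw [map_neg, tfix P]
    refine ⟨-a, -b, -trc θ (-a) (-b) + -c, by rw [map_add, ht, hc'], ?_⟩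
    rw [mul_inv_rev, mul_inv_rev, inv3 P, inv5 P, inv4 P hc, P.rel.add4 _ _ ht hc', m53 P]
    have e1 := m34 P (-a) hc'
    have e2 := m54 P (-b) hc'
    have e3 : x4 (-trc θ (-a) (-b)) * x4 (-c) = x4 (-c) * x4 (-trc θ (-a) (-b)) := by
      rw [← P.rel.add4 _ _ ht hc', ← P.rel.add4 _ _ hc' ht, add_comm]
    calc x4 (-c) * (x3 (-a) * x5 (-b) * x4 (-trc θ (-a) (-b)))
        = (x4 (-c) * x3 (-a)) * x5 (-b) * x4 (-trc θ (-a) (-b)) := by group
      _ = x3 (-a) * (x4 (-c) * x5 (-b)) * x4 (-trc θ (-a) (-b)) := by rw [← e1]; group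
      _ = x3 (-a) * x5 (-b) * (x4 (-c) * x4 (-trc θ (-a) (-b))) := by rw [← e2]; group
      _ = _ := by rw [← e3]

theorem trc_nondeg {a : E} (h : ∀ k, trc θ a k = 0) : a = 0 := by
  by_contra ha
  have h1 := h a⁻¹
  unfold trc at h1
  rw [mul_inv_cancel₀ ha, map_one, map_one, CharTwo.add_self_eq_zero, zero_add] at h1
  exact one_ne_zero h1

theorem trc_symm (a b : E) : trc θ a b = trc θ b a := by
  unfold trc
  rw [mul_comm a b]

/-- the centre of `U` is `X₄` -/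
theorem center_four {z : K} (hz : z ∈ DD P) (h3 : ∀ k, z * x3 k = x3 k * z) (h5 : ∀ k, z * x5 k = x5 k * z) :
    ∃ c, θ c = c ∧ z = x4 c := by
  obtain ⟨a, b, c, hc, rfl⟩ := hz
  have ha : a = 0 := by
    refine trc_nondeg P fun k => ?_
    have h1 := h5 k
    have ht : θ (-trc θ a k) = -trc θ a k := by rw [map_neg, tfix P]
    have e1 : x3 a * x5 b * x4 c * x5 k = x3 a * x5 (b + k) * x4 c := by
      rw [mul_assoc, ← m54 P k hc, P.rel.add5]; group
    have e2 : x5 k * (x3 a * x5 b * x4 c) = x3 a * x5 (b + k) * x4 (-trc θ a k + c) := by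
      calc x5 k * (x3 a * x5 b * x4 c) = (x5 k * x3 a) * x5 b * x4 c := by group
        _ = x3 a * x5 k * (x4 (-trc θ a k) * x5 b) * x4 c := by rw [m53 P]; group
        _ = x3 a * (x5 k * x5 b) * (x4 (-trc θ a k) * x4 c) := by rw [← m54 P b ht]; group
        _ = _ := by rw [← P.rel.add5, ← P.rel.add4 _ _ ht hc, add_comm k b]
    rw [e1, e2] at h1
    have h2 := P.inj4 _ _ hc (by rw [map_add, ht, hc]) (mul_left_cancel h1)
    have h4 : -trc θ a k = 0 := by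
      have : -trc θ a k + c = 0 + c := by rw [zero_add]; exact h2.symm
      exact add_right_cancel this
    exact neg_eq_zero.1 h4
  have hb : b = 0 := by
    refine trc_nondeg P fun k => ?_
    rw [trc_symm P]
    have h1 := h3 k
    have ht : θ (-trc θ k b) = -trc θ k b := by rw [map_neg, tfix P]
    have e1 : x3 a * x5 b * x4 c * x3 k = x3 (a + k) * x5 b * x4 (-trc θ k b + c) := by
      calc x3 a * x5 b * x4 c * x3 k = x3 a * x5 b * (x4 c * x3 k) := by group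
        _ = x3 a * (x5 b * x3 k) * x4 c := by rw [← m34 P k hc]; group
        _ = x3 a * x3 k * x5 b * (x4 (-trc θ k b) * x4 c) := by rw [m53 P]; group
        _ = _ := by rw [← P.rel.add3, ← P.rel.add4 _ _ ht hc]
    have e2 : x3 k * (x3 a * x5 b * x4 c) = x3 (a + k) * x5 b * x4 c := by
      rw [add_comm, P.rel.add3]; group
    rw [e1, e2] at h1
    have h2 := P.inj4 _ _ (by rw [map_add, ht, hc]) hc (mul_left_cancel h1)
    have h4 : -trc θ k b = 0 := by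
      have : -trc θ k b + c = 0 + c := by rw [zero_add]; exact h2
      exact add_right_cancel this
    exact neg_eq_zero.1 h4
  refine ⟨c, hc, ?_⟩
  rw [ha, hb, zero3 P, zero5 P]
  group

end par

section row

variable {I W K : Type*} [Fintype I] [DecidableEq I] [Group W] [Finite W] [Group K] [Finite K] {M : CoxeterMatrix I}
  {cs : CoxeterSystem M W} {A : I → I → ℤ} {h : IsCartan M A} {T : Subgroup K} {n : I → K}
  {X : (I → ℤ) → Subgroup K} {l s : I}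
variable {E : Type*} [Field E] [Finite E] [CharP E 2] {θ : E ≃+* E} {x1 x2 x3 x4 x5 x6 : E → K}

theorem rowTwo_par (P : HexPar θ (fun k => X (r l s k)) x1 x2 x3 x4 x5 x6) (R : RGD cs h 2 T n X) (H : TyG A l s)
    (hG : GG cs h T X = ⊤) : RowTwo K := by
  refine H92.Tall.rowTwo_of_rgd R hG s fun z hz hc => ?_
  have L4 := lr_four P R H
  have L2 : LR R (r l s 2) := by
    have h1 := L4.act (cs.simple l)
    rw [rep_l H] at h1
    have e : (6 - 4 : ZMod (2 * 6)) = 2 := by decide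
    rwa [e] at h1
  have L6 : LR R (r l s 6) := by
    have h1 := L2.act (cs.simple s)
    rw [rep_s H] at h1
    have e : (8 - 2 : ZMod (2 * 6)) = 6 := by decide
    rwa [e] at h1
  set Psi : Set (I → ℤ) := {r l s 2, r l s 4, r l s 6} with hPsi
  have hLR : ∀ a ∈ Psi, LR R a := by
    rintro a (rfl | rfl | rfl)
    · exact L2
    · exact L4
    · exact L6
  have hpos : ∀ k ∈ [(1 : ZMod (2 * 6)), 2, 3, 4, 5, 6], X (r l s k) ≤ RGD.Sup X (RGD.Pos cs h) :=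
    fun k hk => RGD.le_Sup (pos_r H hk)
  have hPc : ∀ a ∈ Psi, ∀ v ∈ X a, z * v = v * z := by
    rintro a (rfl | rfl | rfl) v hv
    · exact hc v (hpos 2 (by decide) hv)
    · exact hc v (hpos 4 (by decide) hv)
    · exact hc v (hpos 6 (by decide) hv)
  obtain ⟨t, ht, -, q, hq, e1⟩ := cent_eq R hLR (fun b hb a ha u hu v hv => (hLR a ha).comm b hb.1 (hb.2 a ha) u hu v hv)
    (g := z) (by rw [hG]; exact mem_top z) hPc
  have hstar : ∀ b ∈ Star cs h Psi, b = r l s 3 ∨ b = r l s 4 ∨ b = r l s 5 := by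
    rintro b ⟨hb1, hb2⟩
    obtain ⟨k, rfl⟩ := (isRoot_iff H).1 hb1
    have h2 := hb2 _ (Or.inl rfl)
    have h4 := hb2 _ (Or.inr (Or.inl rfl))
    have h6 := hb2 _ (Or.inr (Or.inr rfl))
    rw [cpr_two H] at h2
    rw [cpr_four H] at h4
    rw [cpr_six H] at h6
    have h1 : k = 3 ∨ k = 4 ∨ k = 5 := by
      revert h2 h4 h6
      clear hb2 hb1
      revert k
      decide
    rcases h1 with rfl | rfl | rfl
    · exact Or.inl rfl
    · exact Or.inr (Or.inl rfl)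
    · exact Or.inr (Or.inr rfl)
  have hqD : q ∈ DD P := by
    refine RGD.Sup_le (fun b hb => ?_) hq
    rcases hstar b hb with rfl | rfl | rfl
    · intro g hg
      obtain ⟨a, rfl⟩ := (P.mem3 g).1 hg
      exact ⟨a, 0, 0, map_zero _, by rw [zero5 P, zero4 P]; group⟩
    · intro g hg
      obtain ⟨a, ha, rfl⟩ := (P.mem4 g).1 hg
      exact ⟨0, 0, a, ha, by rw [zero3 P, zero5 P]; group⟩
    · intro g hg
      obtain ⟨a, rfl⟩ := (P.mem5 g).1 hg
      exact ⟨0, a, 0, map_zero _, by rw [zero3 P, zero4 P]; group⟩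
  have hqU : q ∈ RGD.Sup X (RGD.Pos cs h) := by
    refine RGD.Sup_mono (fun b hb => ?_) hq
    rcases hstar b hb with rfl | rfl | rfl
    · exact pos_r H (by decide)
    · exact pos_r H (by decide)
    · exact pos_r H (by decide)
  have htU : t ∈ RGD.Sup X (RGD.Pos cs h) ⊓ T := by
    refine ⟨?_, ht⟩
    have h5 : t = z * q⁻¹ := by rw [e1]; group
    rw [h5]
    exact Subgroup.mul_mem _ hz (Subgroup.inv_mem _ hqU)
  rw [U_inf_T R, mem_bot] at htU
  rw [htU, one_mul] at e1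
  rw [← e1] at hqD
  obtain ⟨c, hc4, e4⟩ := center_four P hqD (fun k => hc _ (hpos 3 (by decide) ((P.mem3 _).2 ⟨k, rfl⟩)))
    (fun k => hc _ (hpos 5 (by decide) ((P.mem5 _).2 ⟨k, rfl⟩)))
  rw [e4]
  constructor
  · intro v hv
    rw [← r_one (l := l)] at hv
    exact (comm_four P hc4 1 (by decide) hv).symm
  · intro v hv
    exact (comm_four_neg P R H hc4 hv).symm

end row

end Cfsg.Agent.H371.Tall.D4

namespace Cfsg.Agent.H371.Tall.D4

open Cfsg.Agent.ChevalleyStructure Cfsg.Agent.Nodes.RGDTwD4 Cfsg.Agent.BiChar Cfsg.Agent.UGT.U2.FOne.Hexa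
open Cfsg.Agent.H226.Tall

theorem rowTwo {K : Type} [Field K] [Fintype K] [hchar : CharP K 2] {q : ℕ} (hq : IsPrimePow q)
    (hK : Fintype.card K = q ^ 3) : RowTwo ↥(twistedD4 K q) := by
  have h2p : Fact (Nat.Prime 2) := ⟨Nat.prime_two⟩
  obtain ⟨φ, hφ⟩ := D4Fixed.exists_frob hq hK
  have hle := D4Fixed.twisted_le_fix hK hφ
  have hfW : Finite CoxeterMatrix.G₂.Group := Nodes.RGDChev.finite_W GTwo.isType TwDFour.cs
  have h3 : ∀ a : K, φ (φ (φ a)) = a := by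
    intro t
    rw [hφ, hφ, hφ, ← pow_mul, ← pow_mul]
    have : q * (q * q) = q ^ 3 := by ring
    rw [this, ← hK]
    exact FiniteField.pow_card t
  have hbij : Function.Bijective φ := Finite.injective_iff_bijective.1 φ.injective
  have hpar := Cfsg.Agent.Hexagon.TwD4Par.hexPar (q := q) hφ hle (σ := RingEquiv.ofBijective φ hbij)
    (fun x => rfl) h3
  have hP : (fun k => X φ q (r (0 : Fin 2) 1 k)) = Cfsg.Agent.Hexagon.TwD4RGD.X K q :=
    funext (Cfsg.Agent.UGT.U2.FOne.TwDFour.X_eq hle)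
  rw [← hP] at hpar
  have R := Nodes.RGDTwD4.rgd (K := K) TwDFour.cs hK hφ 2
  have hG := Nodes.RGDTwD4.G1_eq_top TwDFour.cs hK hφ
  have hT := Cfsg.Agent.UGT.U2.FOne.TwDFour.tyG
  exact rowTwo_par hpar R hT (KFacts.RgdFilt.GG_eq_top hG)

end Cfsg.Agent.H371.Tall.D4

namespace Cfsg.Agent.H371.Tall

open Subgroup Cfsg.Agent.H226.Tall

/-- **`²E₆(q)`, `³D₄(q)`, `q` even** -/
theorem rowTwo_tw {G : Type u} [Group G] (h : IsTwistedE6D4Char 2 G) : RowTwo G := by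
  obtain ⟨K, i1, i2, i3, q, hq, ⟨hK, ⟨e⟩⟩ | ⟨hK, ⟨e⟩⟩⟩ := h
  · exact (E6.rowTwo hq hK).congr e.symm
  · exact (D4.rowTwo hq hK).congr e.symm

/-- **[LAT]** -/
theorem no2_tw : No2.{u} (fun K _ => IsTwistedE6D4Char 2 K ∨ Iso2F4 K) := fun h hK =>
  h.false_of_rowTwo (hK.elim rowTwo_tw rowTwo_twF4)

end Cfsg.Agent.H371.Tall
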